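import Mathlib

set_option autoImplicit false

namespace Cfsg.Agent.Lib.Helper68.FR

/-- PIECE D2 (arithmetic). -/
theorem arith_f_one {p : ℕ} (hp : p.Prime) {A x n e t1 s f t a b r : ℕ} (ht1 : t1 ≠ 0)
    (h1 : A * x * n = e * t1) (h2 : s * t1 = f * t * x) (h3 : f ^ 2 * t = p ^ a)
    (hs : s = p ^ b) (hn : n = p ^ a * r) (heb : ¬ p ^ (b + 1) ∣ e) : f = 1 := by
  subst hs hn
  have h4 : A * (p ^ a * r) * p ^ b = e * f * t := by
    apply Nat.eq_of_mul_eq_mul_right (Nat.pos_of_ne_zero ht1)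
    calc A * (p ^ a * r) * p ^ b * t1 = A * (p ^ a * r) * (p ^ b * t1) := by ring
      _ = A * (p ^ a * r) * (f * t * x) := by rw [h2]
      _ = (A * x * (p ^ a * r)) * (f * t) := by ring
      _ = e * t1 * (f * t) := by rw [h1]
      _ = e * f * t * t1 := by ring
  have h5 : p ^ a * (A * r * p ^ b * f) = p ^ a * e := by
    calc p ^ a * (A * r * p ^ b * f) = (A * (p ^ a * r) * p ^ b) * f := by ring
      _ = e * f * t * f := by rw [h4]
      _ = (f ^ 2 * t) * e := by ring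
      _ = p ^ a * e := by rw [h3]
  have h6 : A * r * p ^ b * f = e := Nat.eq_of_mul_eq_mul_left (pow_pos hp.pos _) h5
  have h7 : f ∣ p ^ a := by
    rw [← h3]
    exact Dvd.dvd.mul_right (dvd_pow_self f two_ne_zero) t
  obtain ⟨j, -, rfl⟩ := (Nat.dvd_prime_pow hp).1 h7
  rcases Nat.eq_zero_or_pos j with rfl | hj
  · simp
  · exfalso
    apply heb
    rw [← h6]
    obtain ⟨j', rfl⟩ : ∃ j', j = j' + 1 := ⟨j - 1, by omega⟩
    exact ⟨A * r * p ^ j', by ring⟩

end Cfsg.Agent.Lib.Helper68.FR
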