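import Cfsg.Agent.Lib.Helper15.Relative
import Cfsg.Agent.Lib.Helper51.Card

set_option autoImplicit false

namespace Cfsg.Agent.Lib.Helper68.FR

open Cfsg Cfsg.Agent.Lib Cfsg.Agent.Lib.Helper15
open scoped ComplexConjugate

theorem relIndex_dvd_index_of_normal_right {G : Type*} [Group G] [Finite G] (H K : Subgroup G)
    [K.Normal] : H.relIndex K ∣ H.index := by
  have h1 := Helper51.card_eq_card_inf_mul_relIndex K H
  have h2 := Helper51.card_sup_eq_card_mul_relIndex K H
  have h3 := Helper51.card_sup_mul_card_inf_of_normal H K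
  rw [sup_comm] at h2
  rw [inf_comm] at h1
  have h4 : H.relIndex K = H.relIndex (H ⊔ K) := by
    have h5 : (Nat.card H * Nat.card ↥(H ⊓ K)) * H.relIndex K
        = (Nat.card H * Nat.card ↥(H ⊓ K)) * H.relIndex (H ⊔ K) := by
      calc (Nat.card H * Nat.card ↥(H ⊓ K)) * H.relIndex K
          = Nat.card H * (Nat.card ↥(H ⊓ K) * H.relIndex K) := by ring
        _ = Nat.card H * Nat.card K := by rw [← h1]
        _ = Nat.card ↥(H ⊔ K) * Nat.card ↥(H ⊓ K) := h3.symm
        _ = (Nat.card H * H.relIndex (H ⊔ K)) * Nat.card ↥(H ⊓ K) := by rw [← h2]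
        _ = _ := by ring
    exact Nat.eq_of_mul_eq_mul_left (Nat.mul_pos Nat.card_pos Nat.card_pos) h5
  rw [h4]
  exact Subgroup.relIndex_dvd_index_of_le le_sup_left

variable {Y : Type*} [Group Y] [Fintype Y]

theorem cj_inv_eq_iff {D : Subgroup Y} [D.Normal] (ξ : D → ℂ) (g h : Y) :
    cj D g⁻¹ ξ = cj D h⁻¹ ξ ↔ g⁻¹ * h ∈ inertia D ξ := by
  rw [mem_inertia, ← cj_cj]
  constructor
  · intro h1
    rw [h1, cj_cj_inv]
  · intro h1
    have h2 := congrArg (cj D h⁻¹) h1
    rwa [cj_inv_cj] at h2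

/-- PIECE E (the inertia group is the wanted subgroup). -/
theorem exists_Y1 {D S Y0 : Subgroup Y} [D.Normal] [Y0.Normal] [DecidableEq (D → ℂ)] [Fintype S]
    (hDY0 : D ≤ Y0) {p : ℕ} (hp : p.Prime) (hY0 : ¬ p ∣ D.relIndex Y0) {ξ : D → ℂ}
    (hξ : IsClassFunction D ξ)
    (htr : ∀ y : Y, ∃ k : S, cj D y ξ = cj D (k : Y) ξ) {a : ℕ}
    (hcard : (Finset.univ.image (fun k : S => cj D (k : Y) ξ)).card = p ^ a) :
    ∃ Y1 : Subgroup Y, Y0 ≤ Y1 ∧ Y1.index = p ^ a := by
  classical
  have hidx : (inertia D ξ).index = p ^ a := by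
    rw [← hcard, Subgroup.index, Nat.card_eq_fintype_card, ← Finset.card_univ]
    let F : Y ⧸ inertia D ξ → (D → ℂ) := fun q => Quotient.liftOn' q (fun g => cj D g⁻¹ ξ) (by
      intro g h hgh
      exact (cj_inv_eq_iff ξ g h).2 (QuotientGroup.leftRel_apply.1 hgh))
    have hF : Function.Injective F := by
      intro q q'
      induction q using QuotientGroup.induction_on with
      | H g =>
        induction q' using QuotientGroup.induction_on with
        | H h =>
          intro hgh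
          exact QuotientGroup.eq.2 ((cj_inv_eq_iff ξ g h).1 hgh)
    rw [← Finset.card_image_of_injective _ hF]
    congr 1
    ext x
    simp only [Finset.mem_image, Finset.mem_univ, true_and]
    constructor
    · rintro ⟨q, rfl⟩
      induction q using QuotientGroup.induction_on with
      | H g =>
        obtain ⟨k, hk⟩ := htr g⁻¹
        exact ⟨k, hk.symm⟩
    · rintro ⟨k, rfl⟩
      refine ⟨QuotientGroup.mk ((k : Y)⁻¹), ?_⟩
      change cj D ((k : Y)⁻¹)⁻¹ ξ = _
      rw [inv_inv]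
  refine ⟨inertia D ξ, ?_, hidx⟩
  rw [← Subgroup.relIndex_eq_one]
  have h1 : (inertia D ξ).relIndex Y0 ∣ D.relIndex Y0 :=
    Subgroup.relIndex_dvd_of_le_left Y0 (le_inertia D hξ)
  have h2 : (inertia D ξ).relIndex Y0 ∣ p ^ a := by
    rw [← hidx]
    exact relIndex_dvd_index_of_normal_right _ _
  obtain ⟨j, -, hj⟩ := (Nat.dvd_prime_pow hp).1 h2
  rcases Nat.eq_zero_or_pos j with rfl | hj0
  · simpa using hj
  · exfalso
    apply hY0
    refine dvd_trans ?_ h1
    rw [hj]
    exact dvd_pow_self p hj0.ne'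

end Cfsg.Agent.Lib.Helper68.FR
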