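import Cfsg.Agent.Lib.Helper51.Card

set_option autoImplicit false

namespace Cfsg.Agent.Lib.Helper68.FR

open Cfsg Cfsg.Agent.Lib

theorem eq_one_of_dvd_pow_of_not_dvd {p : ℕ} (hp : p.Prime) {m n k : ℕ} (h1 : m ∣ p ^ k)
    (h2 : m ∣ n) (h3 : ¬ p ∣ n) : m = 1 := by
  obtain ⟨j, -, rfl⟩ := (Nat.dvd_prime_pow hp).1 h1
  rcases Nat.eq_zero_or_pos j with rfl | hj
  · simp
  · exact absurd (dvd_trans (dvd_pow_self p hj.ne') h2) h3

theorem pow_eq_of_mul_eq {p : ℕ} (hp : p.Prime) {j c i r : ℕ} (h : p ^ j * i = p ^ c * r)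
    (hi : ¬ p ∣ i) (hr : ¬ p ∣ r) : j = c := by
  have hci : ∀ n, Nat.Coprime (p ^ n) i := fun n =>
    Nat.Coprime.pow_left _ ((Nat.Prime.coprime_iff_not_dvd hp).2 hi)
  have hcr : ∀ n, Nat.Coprime (p ^ n) r := fun n =>
    Nat.Coprime.pow_left _ ((Nat.Prime.coprime_iff_not_dvd hp).2 hr)
  apply le_antisymm
  · have h1 : p ^ j ∣ p ^ c * r := ⟨i, h.symm⟩
    exact (Nat.pow_dvd_pow_iff_le_right hp.one_lt).1 ((hcr j).dvd_of_dvd_mul_right h1)
  · have h1 : p ^ c ∣ p ^ j * i := ⟨r, h⟩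
    exact (Nat.pow_dvd_pow_iff_le_right hp.one_lt).1 ((hci c).dvd_of_dvd_mul_right h1)

theorem card_eq_mul_relIndex {G : Type*} [Group G] {A B : Subgroup G} (h : A ≤ B) :
    Nat.card B = Nat.card A * A.relIndex B := by
  have h1 := Helper51.card_sup_eq_card_mul_relIndex B A
  rwa [sup_of_le_left h] at h1

variable {Y : Type*} [Group Y] [Fintype Y]

/-- PIECE F (choice of the Sylow subgroup modulo `Z`). -/
theorem exists_S {Z D Y0 : Subgroup Y} [Z.Normal] [D.Normal] [Y0.Normal] (hZD : Z ≤ D)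
    (hDY0 : D ≤ Y0) {p : ℕ} (hp : p.Prime) {c r d : ℕ}
    (hY : Nat.card Y = Nat.card Z * p ^ c * r) (hr : ¬ p ∣ r)
    (hD : Nat.card D = Nat.card Z * p ^ d) (hY0 : ¬ p ∣ D.relIndex Y0) :
    ∃ S : Subgroup Y, D ≤ S ∧ Nat.card S = Nat.card Z * p ^ c ∧ S ⊓ Y0 = D ∧
      ∃ r' : ℕ, Nat.card S = Nat.card D * p ^ (Y0.index.factorization p) ∧
        Y0.index = p ^ (Y0.index.factorization p) * r' := by
  classical
  haveI : Fact p.Prime := ⟨hp⟩
  let P0 : Sylow p D := default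
  set P0' : Subgroup Y := (P0 : Subgroup D).map D.subtype with hP0'
  have hpg : IsPGroup p P0' := P0.2.map D.subtype
  obtain ⟨P1, hP1⟩ := hpg.exists_le_sylow
  set S : Subgroup Y := Z ⊔ P1 with hS
  have hZS : Z ≤ S := le_sup_left
  -- the order of `S`
  have hSi : ¬ p ∣ S.index := fun h =>
    P1.not_dvd_index (dvd_trans h (Subgroup.index_dvd_of_le le_sup_right))
  obtain ⟨n, hn⟩ := P1.2.exists_card_eq
  have hrel : Z.relIndex S ∣ p ^ n := by
    rw [hS, Subgroup.relIndex_sup_left, ← hn]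
    exact Subgroup.relIndex_dvd_card Z P1
  obtain ⟨j, -, hj⟩ := (Nat.dvd_prime_pow hp).1 hrel
  have hScard0 : Nat.card S = Nat.card Z * p ^ j := by
    rw [card_eq_mul_relIndex hZS, hj]
  have hjc : j = c := by
    have h1 := S.card_mul_index
    rw [hScard0, hY, mul_assoc, mul_assoc] at h1
    exact pow_eq_of_mul_eq hp (Nat.eq_of_mul_eq_mul_left Nat.card_pos h1) hSi hr
  subst hjc
  -- `D ≤ S`
  have hZDrel : Z.relIndex D = p ^ d := by
    have h1 := card_eq_mul_relIndex hZD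
    rw [hD] at h1
    exact (Nat.eq_of_mul_eq_mul_left Nat.card_pos h1).symm
  have hDS : D ≤ S := by
    have h1 : (Z ⊔ P0').relIndex D = 1 := by
      apply eq_one_of_dvd_pow_of_not_dvd hp (k := d) (n := (P0 : Subgroup D).index)
      · rw [← hZDrel]
        exact Subgroup.relIndex_dvd_of_le_left D le_sup_left
      · have h2 : P0'.relIndex D = (P0 : Subgroup D).index := by
          rw [Subgroup.relIndex, hP0', Subgroup.subgroupOf,
            Subgroup.comap_map_eq_self_of_injective D.subtype_injective]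
        rw [← h2]
        exact Subgroup.relIndex_dvd_of_le_left D le_sup_right
      · exact P0.not_dvd_index
    exact (Subgroup.relIndex_eq_one.1 h1).trans (sup_le_sup_left hP1 Z)
  have hDSrel : D.relIndex S ∣ p ^ j := by
    rw [← hj, ← Subgroup.relIndex_mul_relIndex Z D S hZD hDS]
    exact Dvd.intro_left _ rfl
  obtain ⟨k, -, hk⟩ := (Nat.dvd_prime_pow hp).1 hDSrel
  have hinf : S ⊓ Y0 = D := by
    apply le_antisymm _ (le_inf hDS hDY0)
    rw [← Subgroup.relIndex_eq_one]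
    apply eq_one_of_dvd_pow_of_not_dvd hp (k := k) (n := D.relIndex Y0) _ _ hY0
    · rw [← hk, ← Subgroup.relIndex_mul_relIndex D (S ⊓ Y0) S (le_inf hDS hDY0) inf_le_left]
      exact Dvd.intro _ rfl
    · rw [← Subgroup.relIndex_mul_relIndex D (S ⊓ Y0) Y0 (le_inf hDS hDY0) inf_le_right]
      exact Dvd.intro _ rfl
  have hY0S : Y0.relIndex S = p ^ k := by
    rw [← Subgroup.inf_relIndex_right, inf_comm, hinf, hk]
  have hidx : Y0.index = p ^ k * (S ⊔ Y0).index := by
    rw [← hY0S, ← Subgroup.relIndex_sup_right, Subgroup.relIndex_mul_index le_sup_right]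
  have hr' : ¬ p ∣ (S ⊔ Y0).index := fun h =>
    hSi (dvd_trans h (Subgroup.index_dvd_of_le le_sup_left))
  have hfac : Y0.index.factorization p = k := by
    rw [hidx, Nat.factorization_mul (pow_pos hp.pos _).ne' Subgroup.index_ne_zero_of_finite,
      Finsupp.add_apply, Nat.factorization_eq_zero_of_not_dvd hr', hp.factorization_pow]
    simp
  refine ⟨S, hDS, hScard0, hinf, (S ⊔ Y0).index, ?_, ?_⟩
  · rw [hfac, card_eq_mul_relIndex hDS, hk]
  · rw [hfac]
    exact hidx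

end Cfsg.Agent.Lib.Helper68.FR
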