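import Cfsg.Agent.Lib.Helper51.Card

set_option autoImplicit false

namespace Cfsg.Agent.Lib.Helper68.FR

open Cfsg Cfsg.Agent.Lib

/-- PIECE G (pure group theory: Frattini). -/
theorem exists_DY {H : Type*} [Group H] [Finite H] (Z K : Subgroup H) [hZ : Z.Normal]
    [hK : K.Normal] (hZK : Z ≤ K) {p : ℕ} (hp : p.Prime) :
    ∃ D Y : Subgroup H, Z ≤ D ∧ D ≤ K ∧ D ≤ Y ∧ (D.subgroupOf Y).Normal ∧ Y ⊔ K = ⊤ ∧
      ¬ p ∣ Y.index ∧ (∃ d : ℕ, Nat.card D = Nat.card Z * p ^ d) ∧ ¬ p ∣ D.relIndex K := by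
  classical
  haveI : Fact p.Prime := ⟨hp⟩
  let P0 : Sylow p K := default
  set P0' : Subgroup H := (P0 : Subgroup K).map K.subtype with hP0'
  have hP0K : P0' ≤ K := by
    rintro _ ⟨x, -, rfl⟩
    exact x.2
  have hpg : IsPGroup p P0' := P0.2.map K.subtype
  have haux : ∀ g ∈ Subgroup.normalizer (P0' : Set H), ∀ h ∈ Z ⊔ P0', g * h * g⁻¹ ∈ Z ⊔ P0' := by
    intro g hg h hh
    have h1 : h ∈ ((Z ⊔ P0' : Subgroup H) : Set H) := hh
    rw [Subgroup.normal_mul] at h1
    obtain ⟨z, hz, q, hq, rfl⟩ := Set.mem_mul.1 h1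
    have h2 : g * (z * q) * g⁻¹ = (g * z * g⁻¹) * (g * q * g⁻¹) := by group
    rw [h2]
    exact Subgroup.mul_mem _ (Subgroup.mem_sup_left (hZ.conj_mem z hz g))
      (Subgroup.mem_sup_right ((Subgroup.mem_normalizer_iff.1 hg q).1 hq))
  have hNN : Subgroup.normalizer (P0' : Set H) ≤
      Subgroup.normalizer ((Z ⊔ P0' : Subgroup H) : Set H) := by
    intro g hg
    rw [Subgroup.mem_normalizer_iff]
    intro h
    constructor
    · exact haux g hg h
    · intro hh
      have h3 := haux g⁻¹ (Subgroup.inv_mem _ hg) _ hh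
      have h4 : g⁻¹ * (g * h * g⁻¹) * g⁻¹⁻¹ = h := by group
      rwa [h4] at h3
  refine ⟨Z ⊔ P0', Subgroup.normalizer ((Z ⊔ P0' : Subgroup H) : Set H), le_sup_left,
    sup_le hZK hP0K, Subgroup.le_normalizer, Subgroup.normal_in_normalizer, ?_, ?_, ?_, ?_⟩
  · have h1 := Sylow.normalizer_sup_eq_top P0
    rw [eq_top_iff, ← h1]
    exact sup_le_sup_right hNN K
  · obtain ⟨P1, hP1⟩ := hpg.exists_le_sylow
    have h1 : (P1 : Subgroup H).subgroupOf K = P0 := by
      apply P0.3 (P1.2.comap_subtype)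
      intro x hx
      exact hP1 ⟨x, hx, rfl⟩
    have h2 : (P1 : Subgroup H) ≤ Subgroup.normalizer (P0' : Set H) := by
      have h3 : ∀ g ∈ (P1 : Subgroup H), ∀ h ∈ P0', g * h * g⁻¹ ∈ P0' := by
        intro g hg h hh
        have h4 : g * h * g⁻¹ ∈ K := hK.conj_mem h (hP0K hh) g
        have h5 : g * h * g⁻¹ ∈ (P1 : Subgroup H) :=
          Subgroup.mul_mem _ (Subgroup.mul_mem _ hg (hP1 hh)) (Subgroup.inv_mem _ hg)
        have h6 : (⟨g * h * g⁻¹, h4⟩ : K) ∈ (P1 : Subgroup H).subgroupOf K := h5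
        rw [h1] at h6
        exact ⟨_, h6, rfl⟩
      intro g hg
      rw [Subgroup.mem_normalizer_iff]
      intro h
      constructor
      · exact h3 g hg h
      · intro hh
        have h7 := h3 g⁻¹ (Subgroup.inv_mem _ hg) _ hh
        have h8 : g⁻¹ * (g * h * g⁻¹) * g⁻¹⁻¹ = h := by group
        rwa [h8] at h7
    intro hdvd
    exact P1.not_dvd_index (dvd_trans hdvd (Subgroup.index_dvd_of_le (h2.trans hNN)))
  · have h1 := Helper51.card_sup_eq_card_mul_relIndex P0' Z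
    rw [sup_comm, Subgroup.relIndex_sup_left] at h1
    obtain ⟨n, hn⟩ := hpg.exists_card_eq
    have h2 : Z.relIndex P0' ∣ p ^ n := by
      rw [← hn]
      exact Subgroup.relIndex_dvd_card Z P0'
    obtain ⟨d, -, hd⟩ := (Nat.dvd_prime_pow hp).1 h2
    exact ⟨d, by rw [h1, hd]⟩
  · intro hdvd
    have h1 : (Z ⊔ P0').relIndex K ∣ P0'.relIndex K :=
      Subgroup.relIndex_dvd_of_le_left K le_sup_right
    have h2 : P0'.relIndex K = (P0 : Subgroup K).index := by
      rw [Subgroup.relIndex, hP0', Subgroup.subgroupOf,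
        Subgroup.comap_map_eq_self_of_injective K.subtype_injective]
    rw [h2] at h1
    exact P0.not_dvd_index (dvd_trans hdvd h1)

end Cfsg.Agent.Lib.Helper68.FR
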